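import Mathlib

/-!
Doubly transitive groups with an involution all of whose centralising elements have the same
number of fixed points: the counting part.
-/

set_option autoImplicit false

namespace Cfsg.Agent.H81.Fixity

open MulAction Finset

variable {G Ω : Type*} [Group G] [MulAction G Ω]

/-- The number of fixed points. -/
noncomputable abbrev fixc (Ω : Type*) [MulAction G Ω] (g : G) : ℕ := Nat.card {x : Ω // g • x = x}

/-- An involution. -/
abbrev Inv' (v : G) : Prop := v * v = 1 ∧ v ≠ 1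

theorem fixc_conj (g v : G) : fixc Ω (g * v * g⁻¹) = fixc Ω v := by
  refine (Nat.card_congr (Equiv.subtypeEquiv (MulAction.toPerm g) fun x => ?_)).symm
  show v • x = x ↔ (g * v * g⁻¹) • g • x = g • x
  rw [← mul_smul, inv_mul_cancel_right, mul_smul, smul_left_cancel_iff]

theorem card_fiber_image {α : Type*} [DecidableEq α] [Fintype G] (f : G → α) (S : Subgroup G)
    (hS : ∀ g h : G, f g = f h ↔ g⁻¹ * h ∈ S) :
    (univ.image f).card * Nat.card S = Nat.card G := by
  classical
  rw [S.card_eq_card_quotient_mul_card_subgroup]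
  congr 1
  rw [← Nat.card_eq_finsetCard]
  refine (Nat.card_congr (Equiv.ofBijective
    (fun q : G ⧸ S => (⟨Quotient.liftOn' q f (fun g h e => (hS g h).2 (QuotientGroup.leftRel_apply.1 e)), by
      induction q using QuotientGroup.induction_on with
      | H g => exact mem_image_of_mem f (mem_univ g)⟩ : ↥(univ.image f))) ⟨?_, ?_⟩)).symm
  · intro q r e
    induction q using QuotientGroup.induction_on with
    | H g =>
      induction r using QuotientGroup.induction_on with
      | H h => exact QuotientGroup.eq.2 ((hS g h).1 (congrArg Subtype.val e))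
  · rintro ⟨y, hy⟩
    obtain ⟨g, -, rfl⟩ := mem_image.1 hy
    exact ⟨QuotientGroup.mk g, rfl⟩

/-- The data of the problem after counting: all involutions are alike. -/
structure Data (G Ω : Type*) [Group G] [MulAction G Ω] (i : ℕ) : Prop where
  faithful : FaithfulSMul G Ω
  two : ∀ {a b c d : Ω}, a ≠ b → c ≠ d → ∃ g : G, g • a = c ∧ g • b = d
  inv_ex : ∃ t : G, Inv' t
  swap_sq : ∀ {a b : Ω} {g : G}, a ≠ b → g • a = b → g • b = a → g * g = 1
  conj : ∀ {v w : G}, Inv' v → Inv' w → ∃ g : G, g * v * g⁻¹ = w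
  fix : ∀ {v : G}, Inv' v → fixc Ω v = i
  cfix : ∀ {v g : G}, Inv' v → Commute g v → g ≠ 1 → fixc Ω g = i
  ccard : ∀ {v : G}, Inv' v → Nat.card (Subgroup.centralizer {v} : Subgroup G) + i = Nat.card Ω

variable [Finite G] [Fintype Ω] {i : ℕ} {t : G}

theorem fixc_one : fixc Ω (1 : G) = Fintype.card Ω := by
  rw [fixc, Nat.card_congr (Equiv.subtypeUnivEquiv fun x => one_smul G x), Nat.card_eq_fintype_card]

theorem moved_add_fixc [DecidableEq Ω] (g : G) :
    (univ.filter fun x : Ω => g • x ≠ x).card + fixc Ω g = Fintype.card Ω := by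
  rw [fixc, Nat.card_eq_fintype_card, Fintype.card_subtype, add_comm,
    card_filter_add_card_filter_not, Finset.card_univ]

theorem centralizer_dvd [FaithfulSMul G Ω] (ht : Inv' t) (hti : fixc Ω t = i)
    (hC : ∀ g : G, Commute g t → g ≠ 1 → fixc Ω g = i) :
    i < Fintype.card Ω ∧ Nat.card (Subgroup.centralizer {t} : Subgroup G) ∣ Fintype.card Ω - i := by
  classical
  have hlt : i < Fintype.card Ω := by
    obtain ⟨x, hx⟩ : ∃ x : Ω, t • x ≠ x := by
      by_contra h
      push Not at h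
      exact ht.2 (FaithfulSMul.eq_of_smul_eq_smul (α := Ω) fun x => by rw [one_smul, h])
    have := moved_add_fixc (Ω := Ω) t
    have : 0 < (univ.filter fun x : Ω => t • x ≠ x).card := card_pos.2 ⟨x, by simp [hx]⟩
    omega
  refine ⟨hlt, ?_⟩
  set C : Subgroup G := Subgroup.centralizer {t}
  haveI : Fintype C := Fintype.ofFinite _
  haveI : Fintype (MulAction.orbitRel.Quotient C Ω) := Fintype.ofFinite _
  have hB := MulAction.sum_card_fixedBy_eq_card_orbits_mul_card_group C Ω
  rw [← Finset.add_sum_erase univ _ (mem_univ (1 : C))] at hB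
  have hval : ∀ c : C, c ≠ 1 → Fintype.card (fixedBy Ω c) = i := by
    intro c hc
    have hc' : Commute (c : G) t := (Subgroup.mem_centralizer_singleton_iff.1 c.2 : _)
    rw [← hC c.1 hc' (fun e => hc (Subtype.ext e)), fixc, ← Nat.card_eq_fintype_card]
    rfl
  rw [Finset.sum_congr rfl (fun c hc => hval c (ne_of_mem_erase hc)), Finset.sum_const, smul_eq_mul,
    card_erase_of_mem (mem_univ _), Finset.card_univ] at hB
  have h1 : Fintype.card (fixedBy Ω (1 : C)) = Fintype.card Ω := by
    rw [← Nat.card_eq_fintype_card, ← fixc_one (G := G) (Ω := Ω)]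
    rfl
  rw [h1] at hB
  rw [Nat.card_eq_fintype_card]
  have hp : 0 < Fintype.card C := Fintype.card_pos
  have : Fintype.card Ω - i + Fintype.card C * i =
      Fintype.card (MulAction.orbitRel.Quotient C Ω) * Fintype.card C := by
    obtain ⟨m, hm⟩ : ∃ m, Fintype.card C = m + 1 := ⟨_, (Nat.succ_pred_eq_of_pos hp).symm⟩
    rw [hm] at hB ⊢
    rw [Nat.add_sub_cancel] at hB
    rw [← hB]
    have : (m + 1) * i = m * i + i := by ring
    omega
  exact (Nat.dvd_add_left (Dvd.intro _ rfl)).1 (this ▸ Dvd.intro_left _ rfl)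

theorem data (h2 : IsMultiplyPretransitive G Ω 2) [FaithfulSMul G Ω] (hn : 2 ≤ Fintype.card Ω)
    (ht : Inv' t) (hti : fixc Ω t = i)
    (hC : ∀ g : G, Commute g t → g ≠ 1 → fixc Ω g = i) : Data G Ω i := by
  classical
  haveI : Fintype G := Fintype.ofFinite G
  have two : ∀ {a b c d : Ω}, a ≠ b → c ≠ d → ∃ g : G, g • a = c ∧ g • b = d :=
    fun hab hcd => is_two_pretransitive_iff.1 h2 hab hcd
  obtain ⟨hlt, hdvd⟩ := centralizer_dvd ht hti hC
  set C : Subgroup G := Subgroup.centralizer {t} with hCdef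
  set T : Finset G := univ.image fun g : G => g * t * g⁻¹ with hT
  have hTC : T.card * Nat.card C = Nat.card G := by
    refine card_fiber_image _ C fun g h => ?_
    rw [hCdef, Subgroup.mem_centralizer_singleton_iff]
    constructor
    · intro e
      calc g⁻¹ * h * t = g⁻¹ * (h * t * h⁻¹) * h := by group
        _ = g⁻¹ * (g * t * g⁻¹) * h := by rw [e]
        _ = _ := by group
    · intro e
      calc g * t * g⁻¹ = g * (t * (g⁻¹ * h)) * h⁻¹ := by group
        _ = g * (g⁻¹ * h * t) * h⁻¹ := by rw [e]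
        _ = _ := by group
  have hTinv : ∀ v ∈ T, Inv' v := by
    intro v hv
    obtain ⟨g, -, rfl⟩ := mem_image.1 hv
    refine ⟨?_, fun e => ht.2 (conj_eq_one_iff.1 e)⟩
    calc g * t * g⁻¹ * (g * t * g⁻¹) = g * (t * t) * g⁻¹ := by group
      _ = 1 := by rw [ht.1]; group
  have hTfix : ∀ v ∈ T, fixc Ω v = i := by
    intro v hv
    obtain ⟨g, -, rfl⟩ := mem_image.1 hv
    rw [fixc_conj, hti]
  -- counting for one pair
  obtain ⟨a, b, hab⟩ := Fintype.exists_pair_of_one_lt_card (α := Ω) hn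
  set D : Subgroup G := stabilizer G a ⊓ stabilizer G b with hD
  have hGD : (univ.offDiag : Finset (Ω × Ω)).card * Nat.card D = Nat.card G := by
    rw [← card_fiber_image (fun g : G => (g • a, g • b)) D fun g h => ?_]
    · congr 1
      congr 1
      ext ⟨x, y⟩
      simp only [mem_offDiag, mem_univ, true_and, mem_image, Prod.mk.injEq]
      exact ⟨fun h => two hab h, fun ⟨g, ga, gb⟩ e => hab (smul_left_cancel g (ga.trans (e.trans gb.symm)))⟩
    · simp only [Prod.mk.injEq, hD, Subgroup.mem_inf, mem_stabilizer_iff, mul_smul, inv_smul_eq_iff]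
      exact ⟨fun ⟨e, e'⟩ => ⟨e.symm, e'.symm⟩, fun ⟨e, e'⟩ => ⟨e.symm, e'.symm⟩⟩
  let W : Ω → Ω → Finset G := fun x y => univ.filter fun g => g • x = y ∧ g • y = x
  have hW : ∀ x y, x ≠ y → (W x y).card = Nat.card D := by
    intro x y hxy
    obtain ⟨w, wa, wb⟩ := two hab hxy.symm
    obtain ⟨e, ea, eb⟩ := two hxy hab
    rw [← Nat.card_eq_finsetCard]
    refine Nat.card_congr ⟨fun g => ⟨w⁻¹ * g.1 * e⁻¹, ?_⟩, fun d => ⟨w * d.1 * e, ?_⟩, ?_, ?_⟩
    · obtain ⟨g, hg⟩ := g
      obtain ⟨gx, gy⟩ := (mem_filter.1 hg).2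
      refine ⟨?_, ?_⟩
      · show (w⁻¹ * g * e⁻¹) • a = a
        rw [mul_smul, mul_smul, inv_smul_eq_iff.2 ea.symm, gx, inv_smul_eq_iff.2 wa.symm]
      · show (w⁻¹ * g * e⁻¹) • b = b
        rw [mul_smul, mul_smul, inv_smul_eq_iff.2 eb.symm, gy, inv_smul_eq_iff.2 wb.symm]
    · refine mem_filter.2 ⟨mem_univ _, ?_, ?_⟩
      · rw [mul_smul, mul_smul, ea, show d.1 • a = a from d.2.1, wa]
      · rw [mul_smul, mul_smul, eb, show d.1 • b = b from d.2.2, wb]
    · intro g; ext; simp only; group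
    · intro g; ext; simp only; group
  let k : Ω → Ω → ℕ := fun x y => (T.filter fun v => v • x = y).card
  have hk : ∀ x y, x ≠ y → k x y = k a b := by
    intro x y hxy
    obtain ⟨g, ga, gb⟩ := two hab hxy
    symm
    refine card_nbij' (fun v => g * v * g⁻¹) (fun v => g⁻¹ * v * g) ?_ ?_ ?_ ?_
    · intro v hv
      simp only [coe_filter, Set.mem_setOf_eq, hT, mem_image, mem_univ, true_and] at hv ⊢
      obtain ⟨⟨h, rfl⟩, hva⟩ := hv
      refine ⟨⟨g * h, by group⟩, ?_⟩
      rw [← ga, mul_smul, inv_smul_smul, mul_smul, hva, gb]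
    · intro v hv
      simp only [coe_filter, Set.mem_setOf_eq, hT, mem_image, mem_univ, true_and] at hv ⊢
      obtain ⟨⟨h, rfl⟩, hvx⟩ := hv
      refine ⟨⟨g⁻¹ * h, by group⟩, ?_⟩
      rw [mul_smul _ g, ga, mul_smul g⁻¹, hvx, ← gb, inv_smul_smul]
    · intro v _; group
    · intro v _; group
  have hcount : T.card * (Fintype.card Ω - i) = (univ.offDiag : Finset (Ω × Ω)).card * k a b := by
    have h := sum_card_bipartiteAbove_eq_sum_card_bipartiteBelow
      (s := T) (t := (univ.offDiag : Finset (Ω × Ω))) (fun v p => v • p.1 = p.2)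
    have hR : ∀ p ∈ (univ.offDiag : Finset (Ω × Ω)),
        (bipartiteBelow (fun (v : G) (p : Ω × Ω) => v • p.1 = p.2) T p).card = k a b :=
      fun p hp => hk p.1 p.2 (mem_offDiag.1 hp).2.2
    have hL : ∀ v ∈ T, (bipartiteAbove (fun (v : G) (p : Ω × Ω) => v • p.1 = p.2)
        (univ.offDiag : Finset (Ω × Ω)) v).card = Fintype.card Ω - i := by
      intro v hv
      have := moved_add_fixc (Ω := Ω) v
      rw [hTfix v hv] at this
      rw [show Fintype.card Ω - i = (univ.filter fun x : Ω => v • x ≠ x).card by omega]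
      refine card_nbij' Prod.fst (fun x => (x, v • x)) ?_ ?_ ?_ ?_
      · intro p hp
        simp only [bipartiteAbove, coe_filter, mem_offDiag, mem_univ, true_and, Set.mem_setOf_eq] at hp ⊢
        rw [hp.2]; exact Ne.symm hp.1
      · intro x hx
        simp only [bipartiteAbove, coe_filter, mem_offDiag, mem_univ, true_and, Set.mem_setOf_eq] at hx ⊢
        exact ⟨Ne.symm hx, trivial⟩
      · intro p hp
        simp only [bipartiteAbove, coe_filter, mem_offDiag, mem_univ, true_and, Set.mem_setOf_eq] at hp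
        exact Prod.ext rfl hp.2
      · intro x _; rfl
    rw [Finset.sum_congr rfl hL, Finset.sum_congr rfl hR, sum_const, sum_const, smul_eq_mul,
      smul_eq_mul] at h
    exact h
  have hsub : ∀ x y, x ≠ y → (T.filter fun v => v • x = y) ⊆ W x y := by
    intro x y _ v hv
    rw [mem_filter] at hv
    refine mem_filter.2 ⟨mem_univ _, hv.2, ?_⟩
    rw [← hv.2, ← mul_smul, (hTinv v hv.1).1, one_smul]
  have hkD : k a b ≤ Nat.card D := hW a b hab ▸ card_le_card (hsub a b hab)
  have hoff : 0 < (univ.offDiag : Finset (Ω × Ω)).card := card_pos.2 ⟨(a, b), by simp [hab]⟩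
  have hCpos : 0 < Nat.card C := Nat.card_pos
  have hDpos : 0 < Nat.card D := Nat.card_pos
  have heq : k a b * Nat.card C = (Fintype.card Ω - i) * Nat.card D := by
    refine Nat.eq_of_mul_eq_mul_left hoff ?_
    rw [← mul_assoc, ← hcount, mul_right_comm, hTC, ← hGD]
    ring
  have hCle : Nat.card C ≤ Fintype.card Ω - i := Nat.le_of_dvd (by omega) hdvd
  have hCeq : Nat.card C = Fintype.card Ω - i := by
    refine le_antisymm hCle ?_
    refine Nat.le_of_mul_le_mul_left ?_ hDpos
    calc Nat.card D * (Fintype.card Ω - i) = k a b * Nat.card C := by rw [heq, mul_comm]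
      _ ≤ _ := by rw [mul_comm (Nat.card D)]; rw [mul_comm (Nat.card C)]; exact Nat.mul_le_mul_right _ hkD
  have hkeq : k a b = Nat.card D := by
    refine Nat.eq_of_mul_eq_mul_right hCpos ?_
    rw [heq, ← hCeq, mul_comm]
  have hWT : ∀ x y, x ≠ y → W x y ⊆ T := by
    intro x y hxy g hg
    have e : (T.filter fun v => v • x = y) = W x y := eq_of_subset_of_card_le (hsub x y hxy) (by
      rw [hW x y hxy, show (T.filter fun v => v • x = y).card = k x y from rfl, hk x y hxy, hkeq])
    rw [← e, mem_filter] at hg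
    exact hg.1
  have hall : ∀ v : G, Inv' v → ∃ g : G, g * t * g⁻¹ = v := by
    intro v hv
    obtain ⟨x, hx⟩ : ∃ x : Ω, v • x ≠ x := by
      by_contra h
      push Not at h
      exact hv.2 (FaithfulSMul.eq_of_smul_eq_smul (α := Ω) fun x => by rw [one_smul, h])
    have := hWT x (v • x) (Ne.symm hx) (mem_filter.2 ⟨mem_univ _, rfl, by rw [← mul_smul, hv.1, one_smul]⟩)
    obtain ⟨g, -, hg⟩ := mem_image.1 this
    exact ⟨g, hg⟩
  refine ⟨‹_›, two, ⟨t, ht⟩, fun {x y g} hxy gx gy =>
    (hTinv g (hWT x y hxy (mem_filter.2 ⟨mem_univ _, gx, gy⟩))).1, ?_, ?_, ?_, ?_⟩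
  · intro v w hv hw
    obtain ⟨g, rfl⟩ := hall v hv
    obtain ⟨h, rfl⟩ := hall w hw
    exact ⟨h * g⁻¹, by group⟩
  · intro v hv
    obtain ⟨g, rfl⟩ := hall v hv
    rw [fixc_conj, hti]
  · intro v x hv hc hx
    obtain ⟨g, rfl⟩ := hall v hv
    have h := hC (g⁻¹ * x * g) ?_ ?_
    · rw [← h, ← fixc_conj (Ω := Ω) g (g⁻¹ * x * g)]
      congr 1
      group
    · show g⁻¹ * x * g * t = t * (g⁻¹ * x * g)
      calc g⁻¹ * x * g * t = g⁻¹ * (x * (g * t * g⁻¹)) * g := by group
        _ = g⁻¹ * ((g * t * g⁻¹) * x) * g := by rw [hc.eq]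
        _ = _ := by group
    · intro e
      exact hx (by rw [show x = g * (g⁻¹ * x * g) * g⁻¹ by group, e]; group)
  · intro v hv
    obtain ⟨g, rfl⟩ := hall v hv
    rw [Nat.card_eq_fintype_card (α := Ω)]
    have : Nat.card (Subgroup.centralizer {g * t * g⁻¹} : Subgroup G) = Nat.card C := by
      refine Nat.card_congr ⟨fun x => ⟨g⁻¹ * x.1 * g, ?_⟩, fun x => ⟨g * x.1 * g⁻¹, ?_⟩, ?_, ?_⟩
      · rw [hCdef, Subgroup.mem_centralizer_singleton_iff]
        have h := Subgroup.mem_centralizer_singleton_iff.1 x.2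
        calc g⁻¹ * x.1 * g * t = g⁻¹ * (x.1 * (g * t * g⁻¹)) * g := by group
          _ = g⁻¹ * ((g * t * g⁻¹) * x.1) * g := by rw [h]
          _ = _ := by group
      · rw [Subgroup.mem_centralizer_singleton_iff]
        have h := Subgroup.mem_centralizer_singleton_iff.1 x.2
        calc g * x.1 * g⁻¹ * (g * t * g⁻¹) = g * (x.1 * t) * g⁻¹ := by group
          _ = g * (t * x.1) * g⁻¹ := by rw [h]
          _ = _ := by group
      · intro x; ext; simp only; group
      · intro x; ext; simp only; group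
    omega

end Cfsg.Agent.H81.Fixity
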