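import Cfsg.Agent.H81.Fixity.Tools

/-!
Involutions fixing three or more points do not occur.
-/

set_option autoImplicit false

namespace Cfsg.Agent.H81.Fixity

open MulAction Finset

variable {G Ω : Type*} [Group G] [MulAction G Ω]

/-- The stabiliser of two points. -/
abbrev pairStab (G : Type*) {Ω : Type*} [Group G] [MulAction G Ω] (x y : Ω) : Subgroup G :=
  stabilizer G x ⊓ stabilizer G y

namespace Data

variable [Finite G] [Fintype Ω] {i : ℕ} (S : Data G Ω i)
include S

theorem pairStab_card {x y a b : Ω} (hxy : x ≠ y) (hab : a ≠ b) :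
    Nat.card (pairStab G x y) = Nat.card (pairStab G a b) := by
  obtain ⟨g, ga, gb⟩ := S.two hxy hab
  refine Nat.card_congr ⟨fun d => ⟨g * d.1 * g⁻¹, ?_, ?_⟩, fun d => ⟨g⁻¹ * d.1 * g, ?_, ?_⟩, ?_, ?_⟩
  · show (g * d.1 * g⁻¹) • a = a
    rw [← ga, mul_smul, inv_smul_smul, mul_smul, show d.1 • x = x from d.2.1]
  · show (g * d.1 * g⁻¹) • b = b
    rw [← gb, mul_smul, inv_smul_smul, mul_smul, show d.1 • y = y from d.2.2]
  · show (g⁻¹ * d.1 * g) • x = x
    rw [mul_smul, ga, mul_smul, show d.1 • a = a from d.2.1, ← ga, inv_smul_smul]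
  · show (g⁻¹ * d.1 * g) • y = y
    rw [mul_smul, gb, mul_smul, show d.1 • b = b from d.2.2, ← gb, inv_smul_smul]
  · intro d; ext; simp only; group
  · intro d; ext; simp only; group

/-- The number `s` of involutions fixing two given points. -/
theorem invol_count (t : G) (ht : Inv' t) : ∃ s : ℕ, ∀ x y : Ω, x ≠ y →
    Nat.card {v : G // Inv' v ∧ v • x = x ∧ v • y = y} = s ∧
      s * Nat.card (Subgroup.centralizer {t} : Subgroup G) = i * (i - 1) * Nat.card (pairStab G x y) := by
  classical
  haveI := Fintype.ofFinite G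
  by_cases hn : ∃ a b : Ω, a ≠ b
  swap
  · exact ⟨0, fun x y h => absurd ⟨x, y, h⟩ hn⟩
  obtain ⟨a, b, hab⟩ := hn
  set T : Finset G := univ.filter fun w => Inv' w with hT
  have hTmem : ∀ w, w ∈ T ↔ Inv' w := fun w => by simp [hT]
  have hcast : ∀ x y : Ω, Nat.card {v : G // Inv' v ∧ v • x = x ∧ v • y = y} =
      (T.filter fun v => v • x = x ∧ v • y = y).card := by
    intro x y
    rw [Nat.card_eq_fintype_card, Fintype.card_subtype, hT, filter_filter]
  refine ⟨(T.filter fun v => v • a = a ∧ v • b = b).card, fun x y hxy => ?_⟩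
  have hconst : ∀ x y : Ω, x ≠ y → (T.filter fun v => v • x = x ∧ v • y = y).card =
      (T.filter fun v => v • a = a ∧ v • b = b).card := by
    intro x y hxy
    obtain ⟨g, ga, gb⟩ := S.two hab hxy
    refine card_nbij' (fun w => g⁻¹ * w * g) (fun w => g * w * g⁻¹) ?_ ?_ ?_ ?_
    · intro w hw
      simp only [coe_filter, hTmem, Set.mem_setOf_eq] at hw ⊢
      refine ⟨by simpa using inv'_conj hw.1 g⁻¹, ?_, ?_⟩
      · rw [mul_smul, ga, mul_smul, hw.2.1, ← ga, inv_smul_smul]
      · rw [mul_smul, gb, mul_smul, hw.2.2, ← gb, inv_smul_smul]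
    · intro w hw
      simp only [coe_filter, hTmem, Set.mem_setOf_eq] at hw ⊢
      refine ⟨inv'_conj hw.1 g, ?_, ?_⟩
      · rw [← ga, mul_smul, inv_smul_smul, mul_smul, hw.2.1]
      · rw [← gb, mul_smul, inv_smul_smul, mul_smul, hw.2.2]
    · intro w _; group
    · intro w _; group
  refine ⟨(hcast x y).trans (hconst x y hxy), ?_⟩
  have hTimage : (univ.image fun g : G => g * t * g⁻¹) = T := by
    ext w
    simp only [mem_image, mem_univ, true_and, hTmem]
    exact ⟨fun ⟨g, e⟩ => e ▸ inv'_conj ht g, fun hw => S.conj ht hw⟩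
  have hTC : T.card * Nat.card (Subgroup.centralizer {t} : Subgroup G) = Nat.card G := by
    rw [← hTimage]
    refine card_fiber_image _ _ fun g h => ?_
    rw [Subgroup.mem_centralizer_singleton_iff]
    constructor
    · intro e
      calc g⁻¹ * h * t = g⁻¹ * (h * t * h⁻¹) * h := by group
        _ = g⁻¹ * (g * t * g⁻¹) * h := by rw [e]
        _ = _ := by group
    · intro e
      calc g * t * g⁻¹ = g * (t * (g⁻¹ * h)) * h⁻¹ := by group
        _ = g * (g⁻¹ * h * t) * h⁻¹ := by rw [e]
        _ = _ := by group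
  have hGD : (univ.offDiag : Finset (Ω × Ω)).card * Nat.card (pairStab G x y) = Nat.card G := by
    rw [← card_fiber_image (fun g : G => (g • x, g • y)) (pairStab G x y) fun g h => ?_]
    · congr 1
      congr 1
      ext ⟨p, q⟩
      simp only [mem_offDiag, mem_univ, true_and, mem_image, Prod.mk.injEq]
      exact ⟨fun h => S.two hxy h, fun ⟨g, ga, gb⟩ e => hxy (smul_left_cancel g (ga.trans (e.trans gb.symm)))⟩
    · simp only [Prod.mk.injEq, pairStab, Subgroup.mem_inf, mem_stabilizer_iff, mul_smul, inv_smul_eq_iff]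
      exact ⟨fun ⟨e, e'⟩ => ⟨e.symm, e'.symm⟩, fun ⟨e, e'⟩ => ⟨e.symm, e'.symm⟩⟩
  have hdc := sum_card_bipartiteAbove_eq_sum_card_bipartiteBelow
    (s := T) (t := (univ.offDiag : Finset (Ω × Ω))) (fun v p => v • p.1 = p.1 ∧ v • p.2 = p.2)
  have hR : ∀ p ∈ (univ.offDiag : Finset (Ω × Ω)),
      (bipartiteBelow (fun (v : G) (p : Ω × Ω) => v • p.1 = p.1 ∧ v • p.2 = p.2) T p).card =
        (T.filter fun v => v • a = a ∧ v • b = b).card :=
    fun p hp => hconst p.1 p.2 (mem_offDiag.1 hp).2.2
  have hL : ∀ v ∈ T, (bipartiteAbove (fun (v : G) (p : Ω × Ω) => v • p.1 = p.1 ∧ v • p.2 = p.2)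
      (univ.offDiag : Finset (Ω × Ω)) v).card = i * (i - 1) := by
    intro v hv
    have hf : (univ.filter fun z : Ω => v • z = z).card = i := by
      rw [← S.fix ((hTmem v).1 hv), fixc, Nat.card_eq_fintype_card, Fintype.card_subtype]
    rw [Nat.mul_sub, mul_one, ← hf, ← offDiag_card]
    congr 1
    ext p
    simp only [bipartiteAbove, mem_filter, mem_offDiag, mem_univ, true_and]
    tauto
  rw [sum_congr rfl hL, sum_congr rfl hR, sum_const, sum_const, smul_eq_mul, smul_eq_mul] at hdc
  have hoff : 0 < (univ.offDiag : Finset (Ω × Ω)).card := card_pos.2 ⟨(a, b), by simp [hab]⟩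
  refine Nat.eq_of_mul_eq_mul_left hoff ?_
  rw [← mul_assoc, ← hdc, mul_right_comm, hTC, ← hGD]
  ring

omit [Finite G] [Fintype Ω] in
theorem commutes_swap {t : G} (ht : Inv' t) {x y : Ω} {w : G} (hxy : x ≠ y) (hw : Inv' w)
    (wx : w • x = y) (wy : w • y = x) (tx : t • x = x) (ty : t • y = y) : w * t = t * w := by
  have h := S.inverts hxy wx wy tx ty
  rw [inv_eq_of_mul_eq_one_right ht.1] at h
  calc w * t = w * t * (w * w) := by rw [hw.1, mul_one]
    _ = (w * t * w) * w := by group
    _ = t * w := by rw [h]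

/-- The centraliser of `t` is transitive on the fixed set of `t`. -/
theorem centralizer_card {t : G} (ht : Inv' t) {a : Ω} (ta : t • a = a) :
    i * Nat.card (Subgroup.centralizer {t} ⊓ stabilizer G a : Subgroup G) =
      Nat.card (Subgroup.centralizer {t} : Subgroup G) := by
  classical
  haveI := Fintype.ofFinite G
  set C : Subgroup G := Subgroup.centralizer {t} with hC
  have hCmem : ∀ g : G, g ∈ C ↔ g * t = t * g := fun g => Subgroup.mem_centralizer_singleton_iff
  have hfixsub : ∀ g ∈ C, ∀ x : Ω, t • x = x → t • (g • x) = g • x := fun g hg x hx => by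
    rw [← mul_smul, ← (hCmem g).1 hg, mul_smul, hx]
  set Ca : Subgroup G := C ⊓ stabilizer G a with hCa
  set F : Finset Ω := univ.filter fun x => t • x = x with hF
  have hFcard : F.card = i := by
    rw [hF, ← Fintype.card_subtype, ← Nat.card_eq_fintype_card]
    exact S.fix ht
  rw [← hFcard]
  haveI : Fintype C := Fintype.ofFinite _
  rw [← card_fiber_image (fun g : C => (g : G) • a) (Ca.subgroupOf C) (fun g h => ?_)]
  · congr 1
    · congr 1
      ext x
      simp only [hF, mem_filter, mem_univ, true_and, mem_image, Subtype.exists]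
      constructor
      · intro hx
        rcases eq_or_ne a x with rfl | hax
        · exact ⟨1, one_mem _, one_smul _ _⟩
        · obtain ⟨w, hw, wa, wx⟩ := S.exists_swap hax
          exact ⟨w, (hCmem w).2 (S.commutes_swap ht hax hw wa wx ta hx), wa⟩
      · rintro ⟨w, hw, rfl⟩
        exact hfixsub w hw a ta
    · exact Nat.card_congr (Subgroup.subgroupOfEquivOfLe inf_le_left).toEquiv.symm
  · simp only [hCa, Subgroup.mem_subgroupOf, Subgroup.mem_inf, mem_stabilizer_iff]
    constructor
    · intro e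
      refine ⟨C.mul_mem (C.inv_mem g.2) h.2, ?_⟩
      show ((g : G)⁻¹ * h) • a = a
      rw [mul_smul, ← e, inv_smul_smul]
    · rintro ⟨-, e⟩
      have e' : ((g : G)⁻¹ * h) • a = a := e
      rw [mul_smul, inv_smul_eq_iff] at e'
      exact e'.symm

/-- The number of fixed points is even once it exceeds one. -/
theorem even_fix (hi : 3 ≤ i) {t : G} (ht : Inv' t) {a : Ω} (ta : t • a = a) : Even i := by
  classical
  haveI := Fintype.ofFinite G
  set C : Subgroup G := Subgroup.centralizer {t} with hC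
  have hCmem : ∀ g : G, g ∈ C ↔ g * t = t * g := fun g => Subgroup.mem_centralizer_singleton_iff
  have hfixsub : ∀ g ∈ C, ∀ x : Ω, t • x = x → t • (g • x) = g • x := fun g hg x hx => by
    rw [← mul_smul, ← (hCmem g).1 hg, mul_smul, hx]
  set Ca : Subgroup G := C ⊓ stabilizer G a with hCa
  set F : Finset Ω := univ.filter fun x => t • x = x with hF
  have hFcard : F.card = i := by
    rw [hF, ← Fintype.card_subtype, ← Nat.card_eq_fintype_card]
    exact S.fix ht
  have hCcard : F.card * Nat.card Ca = Nat.card C := by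
    rw [hFcard]; exact S.centralizer_card ht ta
  by_contra ho
  rw [Nat.not_even_iff_odd] at ho
  -- every element of the centraliser fixes a point of the fixed set
  have hex : ∀ w ∈ C, w ≠ 1 → ∃ x ∈ F, w • x = x := by
    intro w hw hw1
    obtain ⟨⟨x, hx⟩, e⟩ := exists_fixed_of_odd
      (fun z : {z : Ω // w • z = z} => (⟨t • z.1, by rw [← mul_smul, (hCmem w).1 hw, mul_smul, z.2]⟩ :
        {z : Ω // w • z = z}))
      (fun z => Subtype.ext (by simp only [← mul_smul, ht.1, one_smul])) (by
        rw [← Nat.card_eq_fintype_card]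
        have hwc : Nat.card {z : Ω // w • z = z} = i := S.cfix ht ((hCmem w).1 hw) hw1
        rw [hwc]; exact ho)
    exact ⟨x, by simp only [hF, mem_filter, mem_univ, true_and]; exact congrArg Subtype.val e, hx⟩
  have hcov : (univ.filter fun w : G => w ∈ C).erase 1 ⊆
      F.biUnion fun x => (univ.filter fun w : G => w ∈ C ∧ w • x = x).erase 1 := by
    intro w hw
    simp only [mem_erase, mem_filter, mem_univ, true_and] at hw
    obtain ⟨x, hx, e⟩ := hex w hw.2 hw.1
    exact mem_biUnion.2 ⟨x, hx, by simp [hw.1, hw.2, e]⟩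
  have hle := (card_le_card hcov).trans card_biUnion_le
  have hsum : ∀ x ∈ F, ((univ.filter fun w : G => w ∈ C ∧ w • x = x).erase 1).card =
      Nat.card Ca - 1 := by
    intro x hx
    rw [card_erase_of_mem (by simp [C.one_mem]), ← Fintype.card_subtype, ← Nat.card_eq_fintype_card]
    congr 1
    have tx : t • x = x := by simpa [hF] using hx
    obtain ⟨e, heC, ex⟩ : ∃ e ∈ C, e • a = x := by
      rcases eq_or_ne a x with rfl | hax
      · exact ⟨1, one_mem _, one_smul _ _⟩
      · obtain ⟨w, hw, wa, wx⟩ := S.exists_swap hax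
        exact ⟨w, (hCmem w).2 (S.commutes_swap ht hax hw wa wx ta tx), wa⟩
    refine Nat.card_congr ⟨fun w => ⟨e⁻¹ * w.1 * e, C.mul_mem (C.mul_mem (C.inv_mem heC) w.2.1) heC, ?_⟩,
      fun w => ⟨e * w.1 * e⁻¹, C.mul_mem (C.mul_mem heC w.2.1) (C.inv_mem heC), ?_⟩, ?_, ?_⟩
    · show (e⁻¹ * w.1 * e) • a = a
      rw [mul_smul, ex, mul_smul, w.2.2, ← ex, inv_smul_smul]
    · rw [← ex, mul_smul, inv_smul_smul, mul_smul, show w.1 • a = a from w.2.2]
    · intro w; ext; simp only; group
    · intro w; ext; simp only; group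
  rw [card_erase_of_mem (by simp [C.one_mem]), ← Fintype.card_subtype, ← Nat.card_eq_fintype_card,
    sum_congr rfl hsum, sum_const, smul_eq_mul, hFcard] at hle
  have hle' : Nat.card C - 1 ≤ i * (Nat.card Ca - 1) := hle
  rw [← hCcard, hFcard, Nat.mul_sub, mul_one] at hle'
  have : i * 1 ≤ i * Nat.card Ca := Nat.mul_le_mul_left i Nat.card_pos
  omega

/-- An element fixing `a, b` in the fixed set of `t` fixes that set pointwise. -/
theorem pointwise (hi : 3 ≤ i) {t : G} (ht : Inv' t) {a b : Ω} (hab : a ≠ b) (ta : t • a = a)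
    (tb : t • b = b) : ∀ g : G, g • a = a → g • b = b → ∀ c : Ω, t • c = c → g • c = c := by
  classical
  haveI := Fintype.ofFinite G
  intro g ga gb c tc
  have hsame : ∀ d : G, d • a = a → d • b = b → d * d ≠ 1 → ∀ v : G, Inv' v → v • a = a →
      v • b = b → ∀ x : Ω, v • x = x ↔ d • x = x := by
    intro d da db hd v hv va vb
    have hdv : d * v = v * d := S.pair_comm hab da db va vb
    have hsub : ∀ x : Ω, d • x = x → v • x = x := by
      intro x hx
      by_contra hvx
      have h := S.inverts (Ne.symm hvx) rfl (by rw [← mul_smul, hv.1, one_smul]) hx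
        (by rw [← mul_smul, hdv, mul_smul, hx])
      rw [← hdv, mul_assoc, hv.1, mul_one] at h
      exact hd (mul_eq_one_iff_eq_inv.2 h)
    have hc1 := S.fix hv
    have hc2 := S.cfix hv hdv (fun e => hd (by rw [e, one_mul]))
    intro x
    refine ⟨fun hx => ?_, hsub x⟩
    have hs : (univ.filter fun z : Ω => d • z = z) = univ.filter fun z : Ω => v • z = z := by
      refine eq_of_subset_of_card_le (fun z hz => ?_) ?_
      · simp only [mem_filter, mem_univ, true_and] at hz ⊢
        exact hsub z hz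
      · rw [← Fintype.card_subtype, ← Fintype.card_subtype, ← Nat.card_eq_fintype_card,
          ← Nat.card_eq_fintype_card]
        exact (hc1.trans hc2.symm).le
    have : x ∈ univ.filter fun z : Ω => v • z = z := by simp [hx]
    rw [← hs] at this
    exact (mem_filter.1 this).2
  by_cases hA : ∃ d : G, d • a = a ∧ d • b = b ∧ d * d ≠ 1
  · obtain ⟨d, da, db, hd⟩ := hA
    rcases eq_or_ne g 1 with rfl | hg1
    · exact one_smul _ _
    by_cases hg : g * g = 1
    · exact (hsame d da db hd g ⟨hg, hg1⟩ ga gb c).2 ((hsame d da db hd t ht ta tb c).1 tc)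
    · exact (hsame g ga gb hg t ht ta tb c).1 tc
  push Not at hA
  -- every pair stabiliser has exponent two
  have hsq : ∀ x y : Ω, x ≠ y → ∀ d : G, d • x = x → d • y = y → d * d = 1 := by
    intro x y hxy d dx dy
    obtain ⟨e, ea, eb⟩ := S.two hab hxy
    have h := hA (e⁻¹ * d * e) (by rw [mul_smul, ea, mul_smul, dx, ← ea, inv_smul_smul])
      (by rw [mul_smul, eb, mul_smul, dy, ← eb, inv_smul_smul])
    calc d * d = e * ((e⁻¹ * d * e) * (e⁻¹ * d * e)) * e⁻¹ := by group
      _ = 1 := by rw [h]; group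
  set C : Subgroup G := Subgroup.centralizer {t} with hC
  have hCmem : ∀ g : G, g ∈ C ↔ g * t = t * g := fun g => Subgroup.mem_centralizer_singleton_iff
  have hfixsub : ∀ g ∈ C, ∀ x : Ω, t • x = x → t • (g • x) = g • x := fun g hg x hx => by
    rw [← mul_smul, ← (hCmem g).1 hg, mul_smul, hx]
  set Ca : Subgroup G := C ⊓ stabilizer G a with hCa
  set F : Finset Ω := univ.filter fun x => t • x = x with hF
  have hFcard : F.card = i := by
    rw [hF, ← Fintype.card_subtype, ← Nat.card_eq_fintype_card]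
    exact S.fix ht
  have hCcard : F.card * Nat.card Ca = Nat.card C := by
    rw [hFcard]; exact S.centralizer_card ht ta
  have hi2 : Even i := S.even_fix hi ht ta
  -- a non-trivial element of `Ca` fixes a second point of the fixed set
  have hCa2 : ∀ w ∈ Ca, ∃ x : Ω, x ≠ a ∧ t • x = x ∧ w • x = x := by
    rintro w ⟨hw, hwa⟩
    rcases eq_or_ne w 1 with rfl | hw1
    · exact ⟨b, hab.symm, tb, one_smul _ _⟩
    have h := invol_parity
      (fun z : {z : Ω // w • z = z} => (⟨t • z.1, by rw [← mul_smul, (hCmem w).1 hw, mul_smul, z.2]⟩ :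
        {z : Ω // w • z = z}))
      (fun z => Subtype.ext (by simp only [← mul_smul, ht.1, one_smul]))
    rw [← Nat.card_eq_fintype_card] at h
    have hwc : Nat.card {z : Ω // w • z = z} = i := S.cfix ht ((hCmem w).1 hw) hw1
    rw [hwc, Nat.even_iff.1 hi2] at h
    by_contra hno
    rw [card_eq_one.2 ⟨⟨a, hwa⟩, ?_⟩] at h
    · omega
    ext z
    simp only [mem_filter, mem_univ, true_and, mem_singleton, Subtype.ext_iff]
    constructor
    · intro hz
      by_contra hza
      exact hno ⟨z.1, hza, hz, z.2⟩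
    · intro hz; rw [hz, ta]
  have hCasq : ∀ w ∈ Ca, w * w = 1 := by
    intro w hw
    obtain ⟨x, hxa, -, hwx⟩ := hCa2 w hw
    exact hsq a x (Ne.symm hxa) w hw.2 hwx
  have hpow : ∀ K : Subgroup G, (∀ w ∈ K, w * w = 1) → ∃ k, Nat.card K = 2 ^ k := by
    intro K hK
    haveI : Fact (Nat.Prime 2) := ⟨Nat.prime_two⟩
    exact IsPGroup.exists_card_eq fun w : K =>
      ⟨1, Subtype.ext (by simpa [pow_two] using hK w.1 w.2)⟩
  obtain ⟨s, hs⟩ := S.invol_count t ht
  -- the stabiliser of `a` in the centraliser is the pair stabiliser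
  have key : ∀ x : Ω, x ≠ a → t • x = x → pairStab G a x = Ca := by
    intro x hxa tx
    obtain ⟨hs1, hs2⟩ := hs a x (Ne.symm hxa)
    have hle : pairStab G a x ≤ Ca := fun w hw =>
      ⟨(hCmem w).2 (S.pair_comm (Ne.symm hxa) hw.1 hw.2 ta tx), hw.1⟩
    refine Subgroup.eq_of_le_of_card_ge hle ?_
    have hD1 : s + 1 = Nat.card (pairStab G a x) := by
      rw [← hs1, Nat.card_eq_fintype_card, Fintype.card_subtype, Nat.card_eq_fintype_card,
        Fintype.card_subtype, ← card_erase_add_one (s := univ.filter fun v : G => v ∈ pairStab G a x) (a := 1)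
          (by simp [Subgroup.one_mem])]
      congr 2
      ext v
      simp only [mem_erase, mem_filter, mem_univ, true_and, Inv']
      exact ⟨fun h => ⟨h.1.2, h.2.1, h.2.2⟩,
        fun h => ⟨⟨hsq a x (Ne.symm hxa) v h.2.1 h.2.2, h.1⟩, h.2.1, h.2.2⟩⟩
    obtain ⟨k, hk⟩ := hpow Ca hCasq
    obtain ⟨m, hm⟩ := hpow (pairStab G a x) fun w hw => hCasq w (hle hw)
    have hmk : m ≤ k := Nat.pow_dvd_pow_iff_le_right (by norm_num : 1 < 2) |>.1
      (hm ▸ hk ▸ Subgroup.card_dvd_of_le hle)
    have hs2' : s * Nat.card C = i * (i - 1) * Nat.card (pairStab G a x) := hs2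
    rw [← hCcard, hFcard, hk, hm, show s * (i * 2 ^ k) = i * (s * 2 ^ k) by ring, mul_assoc,
      show (2 : ℕ) ^ k = 2 ^ (k - m) * 2 ^ m by rw [← pow_add, Nat.sub_add_cancel hmk]] at hs2'
    have h3 := Nat.eq_of_mul_eq_mul_left (show 0 < i by omega) hs2'
    rw [← mul_assoc] at h3
    have h4 := Nat.eq_of_mul_eq_mul_right (by positivity) h3
    rcases Nat.eq_zero_or_pos (k - m) with h0 | h0
    · rw [hk, hm, show k = m by omega]
    · exfalso
      obtain ⟨j, hj⟩ := hi2
      have : 2 ∣ s * 2 ^ (k - m) := dvd_mul_of_dvd_right (dvd_pow_self 2 (by omega)) s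
      omega
  rcases eq_or_ne c a with rfl | hca
  · exact ga
  have : g ∈ pairStab G a c := by
    rw [key c hca tc, ← key b hab.symm tb]
    exact ⟨ga, gb⟩
  exact this.2

/-- No involution fixes three or more points. -/
theorem lt_three : i < 3 := by
  classical
  haveI := Fintype.ofFinite G
  by_contra hi'
  push Not at hi'
  have hi : 3 ≤ i := hi'
  obtain ⟨t, ht⟩ := S.inv_ex
  have hfix3 : 2 < Fintype.card {x : Ω // t • x = x} := by
    rw [← Nat.card_eq_fintype_card]
    have := S.fix ht
    rw [fixc] at this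
    omega
  obtain ⟨⟨a, ta⟩, ⟨b, tb⟩, ⟨c, tc⟩, hab', hac', hbc'⟩ := Fintype.two_lt_card_iff.1 hfix3
  have hab : a ≠ b := fun e => hab' (Subtype.ext e)
  have hac : a ≠ c := fun e => hac' (Subtype.ext e)
  have hbc : b ≠ c := fun e => hbc' (Subtype.ext e)
  set D : Subgroup G := pairStab G a b with hD
  set C : Subgroup G := Subgroup.centralizer {t} with hC
  have hCmem : ∀ g : G, g ∈ C ↔ g * t = t * g := fun g => Subgroup.mem_centralizer_singleton_iff
  have hfixsub : ∀ g ∈ C, ∀ x : Ω, t • x = x → t • (g • x) = g • x := fun g hg x hx => by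
    rw [← mul_smul, ← (hCmem g).1 hg, mul_smul, hx]
  have hpw : ∀ g ∈ D, ∀ x : Ω, t • x = x → g • x = x := fun g hg =>
    S.pointwise hi ht hab ta tb g hg.1 hg.2
  have hCa : ∀ g ∈ C, g • a = a → g ∈ D := by
    intro g hg ga
    -- `g` fixes a second point of the fixed set, or is inverted there
    refine ⟨ga, ?_⟩
    show g • b = b
    rcases eq_or_ne g 1 with rfl | hg1
    · exact one_smul _ _
    have hev : Even i := S.even_fix hi ht ta
    have h := invol_parity
      (fun z : {z : Ω // g • z = z} => (⟨t • z.1, by rw [← mul_smul, (hCmem g).1 hg, mul_smul, z.2]⟩ :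
        {z : Ω // g • z = z}))
      (fun z => Subtype.ext (by simp only [← mul_smul, ht.1, one_smul]))
    rw [← Nat.card_eq_fintype_card] at h
    have hgc : Nat.card {z : Ω // g • z = z} = i := S.cfix ht ((hCmem g).1 hg) hg1
    rw [hgc, Nat.even_iff.1 hev] at h
    obtain ⟨x, hxa, hgx, htx⟩ : ∃ x : Ω, x ≠ a ∧ g • x = x ∧ t • x = x := by
      by_contra hno
      rw [card_eq_one.2 ⟨⟨a, ga⟩, ?_⟩] at h
      · omega
      ext z
      simp only [mem_filter, mem_univ, true_and, mem_singleton, Subtype.ext_iff]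
      constructor
      · intro hz
        by_contra hza
        exact hno ⟨z.1, hza, z.2, hz⟩
      · intro hz; rw [hz, ta]
    exact S.pointwise hi ht (Ne.symm hxa) ta htx g ga hgx b tb
  have hDC : ∀ g ∈ D, g * t = t * g := fun g hg => S.pair_comm hab hg.1 hg.2 ta tb
  have hinvD : ∀ w ∈ C, w • a ≠ a → ∀ d ∈ D, w * d * w⁻¹ = d⁻¹ := by
    intro w hw hwa d hd
    obtain ⟨u, hu, ua, uwa⟩ := S.exists_swap (Ne.symm hwa)
    have tw : t • (w • a) = w • a := hfixsub w hw a ta
    have huC : u ∈ C := (hCmem u).2 (S.commutes_swap ht (Ne.symm hwa) hu ua uwa ta tw)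
    have he : u * w ∈ D := hCa _ (C.mul_mem huC hw) (by rw [mul_smul, uwa])
    have hinv := S.inverts (Ne.symm hwa) ua uwa (hpw d hd a ta) (hpw d hd _ tw)
    calc w * d * w⁻¹ = u * ((u * w) * d * (u * w)⁻¹) * u := by
          rw [mul_inv_rev, inv_eq_of_mul_eq_one_right hu.1]
          calc w * d * w⁻¹ = (u * u) * w * d * w⁻¹ * (u * u) := by rw [hu.1, one_mul, mul_one]
            _ = _ := by group
      _ = u * d * u := by
          rw [S.pair_comm hab he.1 he.2 hd.1 hd.2, mul_inv_cancel_right]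
      _ = d⁻¹ := hinv
  obtain ⟨g, hg, ga, -⟩ := S.exists_swap hab
  obtain ⟨h, hh, ha, hc⟩ := S.exists_swap hac
  have hgb : g • b = a := by rw [← ga, ← mul_smul, hg.1, one_smul]
  have hgC : g ∈ C := (hCmem g).2 (S.commutes_swap ht hab hg ga hgb ta tb)
  have hhC : h ∈ C := (hCmem h).2 (S.commutes_swap ht hac hh ha hc ta tc)
  have hsq : ∀ d ∈ D, d * d = 1 := by
    intro d hd
    have h1 := hinvD g hgC (by rw [ga]; exact Ne.symm hab) d hd
    have h2 := hinvD h hhC (by rw [ha]; exact Ne.symm hac) d hd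
    have h3 := hinvD (g * h) (C.mul_mem hgC hhC) (by
      rw [mul_smul, ha]
      exact fun e => hbc (smul_left_cancel g (hgb.trans e.symm))) d hd
    have : g * h * d * (g * h)⁻¹ = d := by
      calc g * h * d * (g * h)⁻¹ = g * (h * d * h⁻¹) * g⁻¹ := by group
        _ = (g * d * g⁻¹)⁻¹ := by rw [h2]; group
        _ = d := by rw [h1, inv_inv]
    rw [this] at h3
    exact mul_eq_one_iff_eq_inv.2 h3
  -- counting
  obtain ⟨s, hs⟩ := S.invol_count t ht
  obtain ⟨hs1, hs2⟩ := hs a b hab
  have hD1 : s + 1 = Nat.card D := by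
    rw [← hs1, Nat.card_eq_fintype_card, Fintype.card_subtype, Nat.card_eq_fintype_card,
      Fintype.card_subtype, ← card_erase_add_one (s := univ.filter fun v : G => v ∈ D) (a := 1)
        (by simp [Subgroup.one_mem])]
    congr 2
    ext v
    simp only [mem_erase, mem_filter, mem_univ, true_and, Inv']
    exact ⟨fun h => ⟨h.1.2, h.2.1, h.2.2⟩, fun h => ⟨⟨hsq v h.2, h.1⟩, h.2.1, h.2.2⟩⟩
  set F : Finset Ω := univ.filter fun x => t • x = x with hF
  have hFcard : F.card = i := by
    rw [hF, ← Fintype.card_subtype, ← Nat.card_eq_fintype_card]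
    exact S.fix ht
  have hCcard : F.card * Nat.card D = Nat.card C := by
    rw [hFcard, ← S.centralizer_card ht ta, ← hC, show C ⊓ stabilizer G a = D from le_antisymm
      (fun d hd => hCa d hd.1 hd.2) (fun d hd => ⟨(hCmem d).2 (hDC d hd), hd.1⟩)]
  have hcc : Nat.card C + i = Nat.card Ω := S.ccard ht
  have hs2' : s * Nat.card C = i * (i - 1) * Nat.card D := hs2
  rw [← hCcard, hFcard, show s * (i * Nat.card D) = i * s * Nat.card D by ring] at hs2'
  have hsi : s = i - 1 :=
    Nat.eq_of_mul_eq_mul_left (show 0 < i by omega) (Nat.eq_of_mul_eq_mul_right Nat.card_pos hs2')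
  have hDi : Nat.card D = i := by omega
  rw [← hCcard, hFcard, hDi, Nat.card_eq_fintype_card] at hcc
  -- the blocks at `a`
  let P : Ω → Finset Ω := fun x => (univ.erase a).filter fun y => ∀ g : G, g • a = a → g • x = x → g • y = y
  have hP : ∀ x, x ≠ a → (P x).card = i - 1 ∧ ∀ y ∈ P x, P y = P x := by
    intro x hxa
    have hpos : 0 < Nat.card {v : G // Inv' v ∧ v • a = a ∧ v • x = x} := by
      rw [(hs a x (Ne.symm hxa)).1]; omega
    obtain ⟨⟨⟨v, hv, va, vx⟩⟩, -⟩ := Nat.card_pos_iff.1 hpos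
    have heq : ∀ z, z ≠ a → v • z = z → P z = (univ.filter fun y => v • y = y).erase a := by
      intro z hza vz
      ext y
      simp only [P, mem_filter, mem_erase, mem_univ, true_and, and_true]
      exact ⟨fun h => ⟨h.1, h.2 v va vz⟩, fun h => ⟨h.1, fun g ga gz =>
        S.pointwise hi hv (Ne.symm hza) va vz g ga gz y h.2⟩⟩
    refine ⟨?_, fun y hy => ?_⟩
    · rw [heq x hxa vx, card_erase_of_mem (by simp [va]), ← Fintype.card_subtype,
        ← Nat.card_eq_fintype_card]
      exact congrArg (· - 1) (S.fix hv)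
    · rw [heq x hxa vx] at hy ⊢
      simp only [mem_filter, mem_erase, mem_univ, true_and] at hy
      exact heq y hy.1 hy.2
  have hdiv : i - 1 ∣ Fintype.card Ω - 1 := by
    rw [← Finset.card_univ, ← card_erase_of_mem (mem_univ a),
      card_eq_sum_card_fiberwise (f := P) (t := (univ.erase a).image P) (fun x hx => mem_image_of_mem P hx)]
    refine dvd_sum fun p hp => ?_
    obtain ⟨x, hx, rfl⟩ := mem_image.1 hp
    have hxa := (mem_erase.1 hx).1
    rw [show ((univ.erase a).filter fun y => P y = P x) = P x from ?_, (hP x hxa).1]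
    ext y
    constructor
    · intro hy
      simp only [mem_filter] at hy
      rw [← hy.2]
      exact mem_filter.2 ⟨hy.1, fun g _ h => h⟩
    · intro hy
      exact mem_filter.2 ⟨(mem_filter.1 hy).1, (hP x hxa).2 y hy⟩
  have hn1 : Fintype.card Ω - 1 = (i - 1) * (i + 2) + 1 := by
    obtain ⟨j, rfl⟩ : ∃ j, i = j + 1 := ⟨i - 1, by omega⟩
    rw [← hcc, Nat.add_sub_cancel]
    have : (j + 1) * (j + 1) + (j + 1) = j * (j + 1 + 2) + 1 + 1 := by ring
    omega
  rw [hn1, Nat.dvd_add_right (Dvd.intro _ rfl), Nat.dvd_one] at hdiv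
  omega

end Data

end Cfsg.Agent.H81.Fixity
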