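import Cfsg.Agent.H81.Fixity.NoThree
import Cfsg.Agent.H81.Fixity.Four
import Cfsg.Agent.H21.FrobeniusStructure
import Cfsg.Agent.H7.ZassClassify
import Cfsg.Agent.H7.SzUnique.Main
import Cfsg.Agent.S0885

/-!
Reduction to Zassenhaus groups and conclusion.
-/

set_option autoImplicit false

namespace Cfsg.Agent.H81.Fixity

open MulAction
open scoped Pointwise

variable {G Ω : Type*} [Group G] [MulAction G Ω] [Finite G] [Fintype Ω] {i : ℕ}

omit [Finite G] in
theorem hasReg_of_regular [FaithfulSMul G Ω] [IsPretransitive G Ω]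
    (h : ∀ x : Ω, ∀ g : G, g • x = x → g = 1) : HasReg G Ω := by
  refine ⟨⊤, inferInstance, fun x y => ?_, fun x r _ => h x r⟩
  obtain ⟨g, hg⟩ := exists_smul_eq G x y
  exact ⟨g, Subgroup.mem_top g, hg⟩

/-- Trivial two-point stabilisers give a regular normal subgroup. -/
theorem Data.hasReg_of_trivial (S : Data G Ω i) (hn : ∃ a b : Ω, a ≠ b)
    (h : ∀ g : G, ∀ a b : Ω, a ≠ b → g • a = a → g • b = b → g = 1) : HasReg G Ω := by
  haveI := S.faithful
  haveI := S.pretransitive
  obtain ⟨a, b, hab⟩ := hn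
  by_cases hA : stabilizer G a = ⊥
  · refine hasReg_of_regular fun x g hg => ?_
    obtain ⟨e, ex⟩ := exists_smul_eq G a x
    have : e⁻¹ * g * e ∈ stabilizer G a := by
      rw [mem_stabilizer_iff, mul_smul, mul_smul, ex, hg, ← ex, inv_smul_smul]
    rw [hA, Subgroup.mem_bot] at this
    rw [show g = e * (e⁻¹ * g * e) * e⁻¹ by group, this]; group
  have hfc : Cfsg.IsFrobeniusComplement (stabilizer G a) := by
    refine ⟨hA, fun e => hab ?_, fun g hg => ?_⟩
    · obtain ⟨k, hk⟩ := exists_smul_eq G a b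
      exact ((e ▸ Subgroup.mem_top k : k ∈ stabilizer G a) : k • a = a).symm.trans hk
    · refine (Subgroup.eq_bot_iff_forall _).2 ?_
      rintro x ⟨hx, hx'⟩
      replace hx' : x ∈ MulAut.conj g • stabilizer G a := hx'
      rw [H21.mem_conj_smul, mem_stabilizer_iff, mul_smul, mul_smul, inv_smul_eq_iff] at hx'
      exact h x a (g • a) (fun e => hg e.symm) hx hx'
  obtain ⟨N, -, hN, hc, hnil⟩ := H21.exists_kernel_nilpotent hfc
  haveI := hN
  haveI := hnil
  have hNb : N ≠ ⊥ := by
    rintro rfl
    exact hfc.2.1 (Subgroup.isComplement'_bot_left.1 hc)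
  obtain ⟨A, hA', hA1, hAc⟩ := exists_comm_of_solvable N hNb
  haveI := hA'
  exact hasReg_of_comm S.multiply A hA1 hAc

theorem Data.zassenhaus (S : Data G Ω i) (hreg : ¬ HasReg G Ω) (hn : ∃ a b : Ω, a ≠ b) :
    Cfsg.IsZassenhausGroup G Ω ∧ i ≤ 2 := by
  have hi : i ≤ 2 := Nat.le_of_lt_succ S.lt_three
  refine ⟨⟨S.faithful, S.multiply, ?_, ?_, ?_⟩, hi⟩
  · intro g a b c hab hbc hac ga gb gc
    rcases Nat.lt_or_ge i 2 with h1 | h1
    · exact S.no_three (by omega) hreg hab hbc hac ga gb gc
    by_contra hg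
    obtain ⟨t, ht⟩ := S.inv_ex
    obtain ⟨s, hs⟩ := S.invol_count t ht
    obtain ⟨hs1, hs2⟩ := hs a b hab
    have hspos : 0 < s := by
      rcases Nat.eq_zero_or_pos s with h0 | h0
      · rw [h0, zero_mul, show i = 2 by omega] at hs2
        have : 0 < Nat.card (pairStab G a b) := Nat.card_pos
        omega
      · exact h0
    rw [← hs1] at hspos
    obtain ⟨⟨⟨v, hv, va, vb⟩⟩, -⟩ := Nat.card_pos_iff.1 hspos
    have := S.cfix hv (S.pair_comm hab ga gb va vb) hg
    have h3 := S.three_le_fixc hab hbc hac ga gb gc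
    omega
  · by_contra h
    push Not at h
    refine hreg (S.hasReg_of_trivial hn fun g a b hab ga gb => ?_)
    by_contra hg
    exact h g hg a b hab ga gb
  · intro N hN hNt
    by_contra h
    push Not at h
    refine hreg ⟨N, hN, fun x y => ?_, fun x r hr hx => ?_⟩
    · obtain ⟨⟨r, hr⟩, e⟩ := exists_smul_eq N x y
      exact ⟨r, hr, e⟩
    · have hm : (⟨r, hr⟩ : N) ∈ stabilizer N x := hx
      rw [h x, Subgroup.mem_bot] at hm
      exact congrArg Subtype.val hm

/-- The conclusion. -/
theorem Data.main (S : Data G Ω i) (hn : ∃ a b : Ω, a ≠ b) :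
    (∃ (F : Type) (_ : Field F) (_ : Fintype F),
        Nonempty (G ≃* Matrix.ProjectiveSpecialLinearGroup (Fin 2) F)) ∨
      Cfsg.Lie.IsoSuzuki G ∨ HasReg G Ω := by
  classical
  by_cases hreg : HasReg G Ω
  · exact Or.inr (Or.inr hreg)
  obtain ⟨hZ, hi⟩ := S.zassenhaus hreg hn
  obtain ⟨g, -, a, b, hab, -, -⟩ := hZ.2.2.2.1
  obtain ⟨U, K, -⟩ := (H7.ZHyp.of_zassenhaus hZ).exists_ZK hab
  obtain ⟨t, ht⟩ := S.inv_ex
  have hU := K.card_U
  rw [Nat.card_eq_fintype_card (α := Ω)] at hU
  obtain ⟨k, hk⟩ := K.dvd_degree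
  rw [Nat.card_eq_fintype_card (α := Ω)] at hk
  obtain ⟨c, hca, hcb⟩ := K.z.exists_move K.ne
  have h3 : 2 < Fintype.card Ω := Fintype.two_lt_card_iff.2 ⟨a, b, c, hab, hca.symm, hcb.symm⟩
  have hparity : i % 2 = Fintype.card Ω % 2 := by
    rw [← S.fix ht, fixc, Nat.card_eq_fintype_card, Fintype.card_subtype]
    exact invol_parity (fun x : Ω => t • x) fun x => by simp only [← mul_smul, ht.1, one_smul]
  rcases Nat.lt_or_ge i 2 with h1 | h1
  · have ho : Odd (Nat.card ↥(stabilizer G a ⊓ stabilizer G b)) := by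
      by_contra he
      rw [Nat.not_odd_iff_even, even_iff_two_dvd] at he
      haveI : Fact (Nat.Prime 2) := ⟨Nat.prime_two⟩
      obtain ⟨⟨v, hv⟩, hv2⟩ := exists_prime_orderOf_dvd_card' 2 he
      rw [Subgroup.orderOf_mk] at hv2
      have hvI : Inv' v := ⟨by rw [← pow_two, ← hv2, pow_orderOf_eq_one], fun e => by simp [e] at hv2⟩
      have := S.two_le_fixc hab hv.1 hv.2
      rw [S.fix hvI] at this
      omega
    have hfeit := Cfsg.Agent.S0885.result hZ hab (Nat.card U) _ hU.symm rfl ho U K.le hU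
      (fun u hu u1 c hc => by by_contra hca; exact u1 (K.free hu hca hc))
    rcases Nat.eq_zero_or_pos i with h0 | h0
    · -- fixed-point-free involutions
      left
      have hb : Nat.card U - 1 ≤ 2 * Nat.card ↥(stabilizer G a ⊓ stabilizer G b) := by
        rcases hfeit with h | ⟨hp, hna, -⟩
        · exact h
        · exfalso
          haveI : Fact (Nat.Prime 2) := ⟨Nat.prime_two⟩
          obtain ⟨m, hm⟩ := hp.exists_card_eq
          rcases Nat.eq_zero_or_pos m with hm0 | hm0
          · rw [hm0, pow_zero] at hm; omega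
          · have : 2 ∣ Nat.card U := hm ▸ dvd_pow_self 2 (by omega)
            omega
      have hk0 : 0 < k := Nat.pos_of_ne_zero fun e => by rw [e, mul_zero] at hk; omega
      have hk2 : k ≤ 2 := by
        refine Nat.le_of_mul_le_mul_left ?_ (Nat.card_pos (α := ↥(stabilizer G a ⊓ stabilizer G b)))
        rw [← hk, mul_comm _ 2]
        omega
      interval_cases k
      · exfalso
        obtain ⟨m, hm⟩ := ho
        omega
      have hD : stabilizer G a ⊓ stabilizer G b ≤ commutator G := by
        intro d hd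
        obtain ⟨w, hw, wa, wb⟩ := S.exists_swap hab
        have hinv := S.inverts hab wa wb hd.1 hd.2
        have hsq : (d * d)⁻¹ ∈ commutator G := by
          have h := Subgroup.commutator_mem_commutator (Subgroup.mem_top w) (Subgroup.mem_top d)
          rwa [commutatorElement_def, inv_eq_of_mul_eq_one_right hw.1, hinv, ← mul_inv_rev] at h
        obtain ⟨m, hm⟩ := ho
        have hp : d ^ (2 * m + 1) = 1 := by
          rw [← hm]
          exact congrArg Subtype.val
            (pow_card_eq_one' (x := (⟨d, hd⟩ : ↥(stabilizer G a ⊓ stabilizer G b))))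
        have hd' : d = (d * d) ^ (m + 1) := by
          rw [← pow_two, ← pow_mul, show 2 * (m + 1) = (2 * m + 1) + 1 by ring, pow_succ, hp, one_mul]
        rw [hd']
        exact pow_mem (inv_mem_iff.1 hsq) _
      obtain ⟨F, i1, i2, -, -, h⟩ := K.psl_of_odd_half ho hD (by omega)
      exact ⟨F, i1, i2, h⟩
    · -- a single fixed point
      have hodd : Odd (Fintype.card Ω) := Nat.odd_iff.2 (by omega)
      haveI := H7.zassenhaus_odd_simple hZ hodd
      rcases hfeit with hb | ⟨hp, hna, -⟩
      · left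
        have hk0 : 0 < k := Nat.pos_of_ne_zero fun e => by rw [e, mul_zero] at hk; omega
        have hk2 : k ≤ 2 := by
          refine Nat.le_of_mul_le_mul_left ?_ (Nat.card_pos (α := ↥(stabilizer G a ⊓ stabilizer G b)))
          rw [← hk, mul_comm _ 2]
          omega
        interval_cases k
        · obtain ⟨F, i1, i2, -, -, h⟩ := K.z.psl_of_odd_full hab hodd (by omega)
          exact ⟨F, i1, i2, h⟩
        · exfalso
          obtain ⟨m, hm⟩ := hodd
          omega
      · exact Or.inr (Or.inl (H7.SzU.isoSuzuki_of_setup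
          ⟨a, b, hab, K.z, U, K.le, hU,
            fun u hu u1 c hc => by by_contra hca; exact u1 (K.free hu hca hc)⟩ hp hna))
  · -- two fixed points
    left
    obtain ⟨s, hs⟩ := S.invol_count t ht
    obtain ⟨hs1, hs2⟩ := hs a b hab
    have hspos : 0 < s := by
      rcases Nat.eq_zero_or_pos s with h0 | h0
      · rw [h0, zero_mul, show i = 2 by omega] at hs2
        have : 0 < Nat.card (pairStab G a b) := Nat.card_pos
        omega
      · exact h0
    rw [← hs1] at hspos
    obtain ⟨⟨⟨v, hv, va, vb⟩⟩, -⟩ := Nat.card_pos_iff.1 hspos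
    have he : Even (Nat.card ↥(stabilizer G a ⊓ stabilizer G b)) := by
      rw [even_iff_two_dvd]
      have h2 : orderOf v = 2 := orderOf_eq_prime (by rw [pow_two, hv.1]) hv.2
      rw [← h2]
      exact Subgroup.orderOf_dvd_natCard _ ⟨va, vb⟩
    rcases K.z.even_cases hab he with h | h
    · exfalso
      obtain ⟨w, hw, wa, wb⟩ := S.exists_swap hab
      have hlt : stabilizer G a ⊓ stabilizer G b < Subgroup.centralizer {v} := by
        refine lt_of_le_of_ne (fun d hd => Subgroup.mem_centralizer_singleton_iff.2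
          (S.pair_comm hab hd.1 hd.2 va vb)) fun e => ?_
        have hwC : w ∈ Subgroup.centralizer {v} :=
          Subgroup.mem_centralizer_singleton_iff.2 (S.commutes_swap hv hab hw wa wb va vb)
        rw [← e] at hwC
        exact hab ((hwC.1 : w • a = a).symm.trans wa)
      have hcard : Nat.card ↥(stabilizer G a ⊓ stabilizer G b) <
          Nat.card (Subgroup.centralizer {v} : Subgroup G) :=
        Set.Finite.card_lt_card (Set.toFinite _) hlt
      have := S.ccard hv
      rw [Nat.card_eq_fintype_card (α := Ω)] at this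
      omega
    · obtain ⟨F, i1, i2, -, -, h⟩ := K.z.psl_of_even_half hab he h
      exact ⟨F, i1, i2, h⟩

end Cfsg.Agent.H81.Fixity
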