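import Cfsg.Agent.H81.Fixity.Tools
import Cfsg.Agent.S0205
import Cfsg.Agent.S0215

/-!
Involutions with at most one fixed point: no element fixes three points unless a regular normal
subgroup exists.
-/

set_option autoImplicit false

namespace Cfsg.Agent.H81.Fixity

open MulAction Finset

variable {G Ω : Type*} [Group G] [MulAction G Ω]

namespace Data

variable [Finite G] [Fintype Ω] {i : ℕ} (S : Data G Ω i)
include S

/-- If `i = 1` and two commuting involutions are always equal, there is a regular normal subgroup. -/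
theorem hasReg_of_isolated (hi : i ≤ 1) (hq : ∀ v : G, Inv' v → ∃ q : Ω, v • q = q)
    (hcomm : ∀ r s : G, Inv' r → Inv' s → Commute r s → r = s) {a b : Ω} (hab : a ≠ b) :
    HasReg G Ω := by
  haveI := S.faithful
  haveI := S.pretransitive
  obtain ⟨t, ht⟩ := S.inv_ex
  have ht2 : orderOf t = 2 := orderOf_eq_prime (by rw [pow_two, ht.1]) ht.2
  obtain ⟨P, hP⟩ := IsPGroup.exists_le_sylow
    (IsPGroup.of_card (p := 2) (n := 1) (G := Subgroup.zpowers t) (by rw [Nat.card_zpowers, ht2, pow_one]))
  have htP : t ∈ P := hP (Subgroup.mem_zpowers t)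
  haveI : Nontrivial P := ⟨⟨⟨t, htP⟩, 1, fun e => ht.2 (congrArg Subtype.val e)⟩⟩
  haveI : Nontrivial (Subgroup.center P) := P.isPGroup'.center_nontrivial
  haveI : Fact (Nat.Prime 2) := ⟨Nat.prime_two⟩
  obtain ⟨z, hz⟩ : ∃ z : Subgroup.center P, orderOf z = 2 := by
    refine exists_prime_orderOf_dvd_card' 2 ?_
    obtain ⟨k, hk⟩ := (P.isPGroup'.to_subgroup (Subgroup.center P)).exists_card_eq
    have : 1 < Nat.card (Subgroup.center P) := Finite.one_lt_card
    rw [hk] at this ⊢
    exact dvd_pow_self 2 (fun e => by simp [e] at this)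
  have hzI : Inv' (z.1.1 : G) := by
    refine ⟨?_, fun e => ?_⟩
    · have h := pow_orderOf_eq_one z
      rw [hz, pow_two] at h
      exact congrArg (fun x : Subgroup.center P => (x.1.1 : G)) h
    · have : z = 1 := Subtype.ext (Subtype.ext e)
      rw [this, orderOf_one] at hz
      omega
  have hall : ∀ v : G, Inv' v → v ∈ P → v = z.1.1 := by
    intro v hv hvP
    refine hcomm _ _ hv hzI ?_
    exact congrArg Subtype.val (Subgroup.mem_center_iff.1 z.2 ⟨v, hvP⟩)
  obtain ⟨N, hN, hNodd, hNc⟩ := Cfsg.Agent.S0215.result P t ht2 htP fun g hg => by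
    rw [hall _ (inv'_conj ht g) hg, hall t ht htP]
  haveI := hN
  by_cases hNb : N = ⊥
  · exfalso
    have hcen : ∀ g : G, g * t = t * g := by
      intro g
      have h := hNc g
      rw [hNb, Subgroup.mem_bot] at h
      have : t * g * t⁻¹ = g := mul_inv_eq_one.1 h
      rw [mul_inv_eq_iff_eq_mul] at this
      exact this.symm
    obtain ⟨q, hqq⟩ := hq t ht
    have hfix : ∀ x : Ω, x = q := by
      intro x
      obtain ⟨g, rfl⟩ := exists_smul_eq G q x
      exact S.fix_unique hi ht (by rw [← mul_smul, ← hcen, mul_smul, hqq]) hqq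
    exact hab ((hfix a).trans (hfix b).symm)
  haveI := Cfsg.Agent.S0205.result hNodd
  obtain ⟨A, hA, hA1, hAc⟩ := exists_comm_of_solvable N hNb
  haveI := hA
  exact hasReg_of_comm S.multiply A hA1 hAc

/-- With `i ≤ 1`, a non-trivial element fixes at most two points. -/
theorem no_three (hi : i ≤ 1) (hreg : ¬ HasReg G Ω) {d : G} {a b c : Ω} (hab : a ≠ b) (hbc : b ≠ c)
    (hac : a ≠ c) (da : d • a = a) (db : d • b = b) (dc : d • c = c) : d = 1 := by
  classical
  haveI := Fintype.ofFinite G
  haveI := S.pretransitive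
  by_contra hd
  have hd2 : d * d ≠ 1 := fun e => hab (S.fix_unique hi ⟨e, hd⟩ da db)
  -- the centraliser of `d` has odd order
  have hM : ∀ v : G, Inv' v → Commute v d → False := by
    intro v hv hvd
    obtain ⟨p, hp, hvp⟩ : ∃ p : Ω, d • p = p ∧ v • p ≠ p := by
      by_contra h
      push Not at h
      exact hab (S.fix_unique hi hv (h a da) (h b db))
    have h := S.inverts (Ne.symm hvp) rfl (by rw [← mul_smul, hv.1, one_smul]) hp
      (by rw [← mul_smul, ← hvd.eq, mul_smul, hp])
    rw [hvd.eq, mul_assoc, hv.1, mul_one] at h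
    exact hd2 (mul_eq_one_iff_eq_inv.2 h)
  set M : Subgroup G := Subgroup.centralizer {d} with hMdef
  have hMmem : ∀ m : G, m ∈ M ↔ m * d = d * m := fun m => Subgroup.mem_centralizer_singleton_iff
  have hModd : Odd (Nat.card M) := by
    by_contra he
    rw [Nat.not_odd_iff_even, even_iff_two_dvd] at he
    haveI : Fact (Nat.Prime 2) := ⟨Nat.prime_two⟩
    obtain ⟨⟨v, hv⟩, hv2⟩ := exists_prime_orderOf_dvd_card' 2 he
    rw [Subgroup.orderOf_mk] at hv2
    exact hM v ⟨by rw [← pow_two, ← hv2, pow_orderOf_eq_one], fun e => by simp [e] at hv2⟩ ((hMmem v).1 hv)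
  -- some involution inverting `d` fixes a point fixed by `d`
  obtain ⟨u, hu, ua, ub⟩ := S.exists_swap hab
  obtain ⟨u', hu', ua', uc'⟩ := S.exists_swap hac
  have hm0 : u * u' ∈ M := by
    rw [hMmem]
    have h1 := S.inverts hab ua ub da db
    have h2 := S.inverts hac ua' uc' da dc
    have h3 : u * d⁻¹ * u = d := by
      rw [← h1, show u * (u * d * u) * u = (u * u) * d * (u * u) by group, hu.1, one_mul, mul_one]
    calc u * u' * d = u * (u' * d * u') * (u' * u')⁻¹ * u' := by group
      _ = u * d⁻¹ * u' := by rw [h2, hu'.1, inv_one, mul_one]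
      _ = (u * d⁻¹ * u) * (u * u)⁻¹ * u * u' := by group
      _ = d * (u * u') := by rw [h3, hu.1, inv_one, mul_one, mul_assoc]
  have hpa : u • c ≠ a := fun e => hbc (smul_left_cancel u (ub.trans e.symm))
  have hMfix : ∀ m ∈ M, d • (m • a) = m • a := fun m hm => by
    rw [← mul_smul, ← (hMmem m).1 hm, mul_smul, da]
  have dp : d • (u • c) = u • c := by
    have := hMfix _ hm0
    rwa [mul_smul, ua'] at this
  obtain ⟨v, hv, va, vp⟩ := S.exists_swap (Ne.symm hpa)
  have hvd : v * d * v = d⁻¹ := S.inverts (Ne.symm hpa) va vp da dp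
  have hvM : ∀ m ∈ M, v * m * v ∈ M := by
    intro m hm
    rw [hMmem]
    have h1 : m * d⁻¹ = d⁻¹ * m := (Commute.inv_right ((hMmem m).1 hm : Commute m d)).eq
    have h2 : v * d⁻¹ * v = d := by
      rw [← hvd, show v * (v * d * v) * v = (v * v) * d * (v * v) by group, hv.1, one_mul, mul_one]
    calc v * m * v * d = v * m * (v * d * v) * (v * v)⁻¹ * v := by group
      _ = v * (m * d⁻¹) * v := by rw [hvd, hv.1, inv_one, mul_one]; group
      _ = (v * d⁻¹ * v) * (v * v)⁻¹ * v * m * v := by rw [h1]; group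
      _ = d * (v * m * v) := by rw [h2, hv.1, inv_one, mul_one]; group
  obtain ⟨q, hdq, hvq⟩ : ∃ q : Ω, d • q = q ∧ v • q = q := by
    let O := MulAction.orbit M a
    haveI : Fintype O := Fintype.ofFinite _
    have hO : Odd (Fintype.card O) := by
      refine hModd.of_dvd_nat ?_
      rw [← Nat.card_eq_fintype_card]
      exact Dvd.intro (Nat.card (stabilizer M a)) (by
        haveI : Fintype M := Fintype.ofFinite _
        haveI : Fintype (stabilizer M a) := Fintype.ofFinite _
        rw [Nat.card_eq_fintype_card, Nat.card_eq_fintype_card, Nat.card_eq_fintype_card]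
        exact MulAction.card_orbit_mul_card_stabilizer_eq_card_group M a)
    have hmap : ∀ x : O, v • x.1 ∈ O := by
      rintro ⟨x, m, rfl⟩
      refine ⟨⟨v * m.1 * v * (u * u'), mul_mem (hvM _ m.2) hm0⟩, ?_⟩
      show (v * m.1 * v * (u * u')) • a = v • (m.1 • a)
      simp only [mul_smul]
      rw [ua', vp]
    obtain ⟨⟨q, m, rfl⟩, hq⟩ := exists_fixed_of_odd (fun x : O => (⟨v • x.1, hmap x⟩ : O))
      (fun x => Subtype.ext (by simp only [← mul_smul, hv.1, one_smul])) hO
    exact ⟨_, hMfix m.1 m.2, congrArg Subtype.val hq⟩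
  have hi1 : i = 1 := by
    have : 0 < fixc Ω v := Nat.card_pos_iff.2 ⟨⟨⟨q, hvq⟩⟩, inferInstance⟩
    rw [S.fix hv] at this
    omega
  have hfixex : ∀ w : G, Inv' w → ∃ x : Ω, w • x = x := by
    intro w hw
    have h : 0 < fixc Ω w := by rw [S.fix hw, hi1]; omega
    obtain ⟨⟨⟨x, hx⟩⟩, -⟩ := Nat.card_pos_iff.1 h
    exact ⟨x, hx⟩
  -- involutions inverting `d` fix a point of its fixed set, which has odd size
  have hpres : ∀ w : G, Inv' w → w * d * w = d⁻¹ → ∀ x : Ω, d • x = x → d • (w • x) = w • x := by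
    intro w hw hwd x hx
    have : d * w = w * d⁻¹ := by
      rw [← hwd, show w * (w * d * w) = (w * w) * d * w by group, hw.1, one_mul]
    rw [← mul_smul, this, mul_smul, inv_smul_eq_iff.2 hx.symm]
  let F := {x : Ω // d • x = x}
  have hFodd : Odd (Fintype.card F) := by
    have h := invol_parity (fun x : F => (⟨v • x.1, hpres v hv hvd x.1 x.2⟩ : F))
      (fun x => Subtype.ext (by simp only [← mul_smul, hv.1, one_smul]))
    have h1 : (univ.filter fun x : F => (⟨v • x.1, hpres v hv hvd x.1 x.2⟩ : F) = x) = {⟨q, hdq⟩} := by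
      ext x
      simp only [mem_filter, mem_univ, true_and, mem_singleton, Subtype.ext_iff]
      exact ⟨fun e => Subtype.ext (S.fix_unique hi hv e hvq), fun e => by rw [e]; exact hvq⟩
    rw [h1, card_singleton] at h
    exact Nat.odd_iff.2 h.symm
  have hinvfix : ∀ w : G, Inv' w → w * d * w = d⁻¹ → ∀ x : Ω, w • x = x → d • x = x := by
    intro w hw hwd x hx
    obtain ⟨⟨y, hy⟩, hwy⟩ := exists_fixed_of_odd
      (fun z : F => (⟨w • z.1, hpres w hw hwd z.1 z.2⟩ : F))
      (fun z => Subtype.ext (by simp only [← mul_smul, hw.1, one_smul])) hFodd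
    rwa [S.fix_unique hi hw hx (congrArg Subtype.val hwy)]
  -- counting: every involution fixing `b` inverts `d`
  set T : Finset G := univ.filter fun w => Inv' w with hT
  have hTmem : ∀ w, w ∈ T ↔ Inv' w := fun w => by simp [hT]
  let W : Ω → Ω → Finset G := fun x y => T.filter fun w => w • x = y
  have hW : ∀ x y, x ≠ y → (W x y).card = (W a b).card := by
    intro x y hxy
    obtain ⟨g, ga, gb⟩ := S.two hab hxy
    refine card_nbij' (fun w => g⁻¹ * w * g) (fun w => g * w * g⁻¹) ?_ ?_ ?_ ?_
    · intro w hw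
      simp only [W, coe_filter, hTmem, Set.mem_setOf_eq] at hw ⊢
      refine ⟨by simpa using inv'_conj hw.1 g⁻¹, ?_⟩
      rw [mul_smul, ga, mul_smul, hw.2, ← gb, inv_smul_smul]
    · intro w hw
      simp only [W, coe_filter, hTmem, Set.mem_setOf_eq] at hw ⊢
      refine ⟨inv'_conj hw.1 g, ?_⟩
      rw [← ga, mul_smul, inv_smul_smul, mul_smul, hw.2, gb]
    · intro w _; group
    · intro w _; group
  let I : Ω → Finset G := fun p => T.filter fun w => w • p = p
  have hI : ∀ p, (I p).card = (I a).card := by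
    intro p
    obtain ⟨g, ga⟩ := exists_smul_eq G a p
    refine card_nbij' (fun w => g⁻¹ * w * g) (fun w => g * w * g⁻¹) ?_ ?_ ?_ ?_
    · intro w hw
      simp only [I, coe_filter, hTmem, Set.mem_setOf_eq] at hw ⊢
      refine ⟨by simpa using inv'_conj hw.1 g⁻¹, ?_⟩
      rw [mul_smul, ga, mul_smul, hw.2, ← ga, inv_smul_smul]
    · intro w hw
      simp only [I, coe_filter, hTmem, Set.mem_setOf_eq] at hw ⊢
      refine ⟨inv'_conj hw.1 g, ?_⟩
      rw [← ga, mul_smul, inv_smul_smul, mul_smul, hw.2]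
    · intro w _; group
    · intro w _; group
  have hfibre : ∀ s : Finset Ω, a ∉ s →
      (T.filter fun w => w • a ∈ s).card = s.card * (W a b).card := by
    intro s hs
    rw [card_eq_sum_card_fiberwise (s := T.filter fun w => w • a ∈ s) (f := fun w : G => w • a) (t := s)
      (fun w hw => (mem_filter.1 hw).2), ← smul_eq_mul, ← sum_const]
    refine sum_congr rfl fun y hy => ?_
    rw [← hW a y (fun e => hs (e ▸ hy))]
    congr 1
    ext w
    simp only [W, mem_filter]
    exact ⟨fun h => ⟨h.1.1, h.2⟩, fun h => ⟨⟨h.1, h.2 ▸ hy⟩, h.2⟩⟩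
  have hIW : (I a).card = (W a b).card := by
    have h := sum_card_bipartiteAbove_eq_sum_card_bipartiteBelow
      (s := T) (t := (univ : Finset Ω)) (fun w p => w • p = p)
    have hL : ∀ w ∈ T, (bipartiteAbove (fun (w : G) (p : Ω) => w • p = p) univ w).card = 1 := by
      intro w hw
      rw [← hi1, ← S.fix ((hTmem w).1 hw), fixc, Nat.card_eq_fintype_card, Fintype.card_subtype]
      rfl
    have hR : ∀ p ∈ (univ : Finset Ω),
        (bipartiteBelow (fun (w : G) (p : Ω) => w • p = p) T p).card = (I a).card := fun p _ => hI p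
    rw [sum_congr rfl hL, sum_congr rfl hR, sum_const, sum_const, smul_eq_mul, smul_eq_mul,
      mul_one] at h
    have h2 := card_filter_add_card_filter_not (s := T) (fun w => w • a = a)
    have h3 : (T.filter fun w => ¬ w • a = a) = T.filter fun w => w • a ∈ univ.erase a :=
      filter_congr fun w _ => by simp
    rw [h3, hfibre _ (notMem_erase a univ), card_erase_of_mem (mem_univ a)] at h2
    rw [h] at h2
    have h2' : (I a).card + (Finset.card (univ : Finset Ω) - 1) * (W a b).card =
        Finset.card (univ : Finset Ω) * (I a).card := h2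
    have hn : 1 < Finset.card (univ : Finset Ω) := one_lt_card.2 ⟨a, mem_univ a, b, mem_univ b, hab⟩
    obtain ⟨m, hm⟩ : ∃ m, Finset.card (univ : Finset Ω) = m + 1 + 1 := ⟨_, (by omega :
      Finset.card (univ : Finset Ω) = (Finset.card (univ : Finset Ω) - 2) + 1 + 1)⟩
    rw [hm, Nat.add_sub_cancel] at h2'
    refine Nat.eq_of_mul_eq_mul_left (show 0 < m + 1 by omega) ?_
    have e : (m + 1 + 1) * (I a).card = (m + 1) * (I a).card + (I a).card := by ring
    omega
  let Fs : Finset Ω := (univ.filter fun x => d • x = x).erase a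
  have hXY : (T.filter fun w => w • a ∈ Fs) = Fs.biUnion I := by
    refine eq_of_subset_of_card_le ?_ ?_
    · intro w hw
      simp only [Fs, mem_filter, mem_erase, mem_univ, true_and, hTmem] at hw
      obtain ⟨hwI, hwa, hdw⟩ := hw
      have hwd := S.inverts (Ne.symm hwa) rfl (by rw [← mul_smul, hwI.1, one_smul]) da hdw
      obtain ⟨x, hx⟩ := hfixex w hwI
      refine mem_biUnion.2 ⟨x, ?_, mem_filter.2 ⟨(hTmem w).2 hwI, hx⟩⟩
      simp only [Fs, mem_filter, mem_erase, mem_univ, true_and]
      exact ⟨fun e => hwa (e ▸ hx), hinvfix w hwI hwd x hx⟩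
    · refine card_biUnion_le.trans ?_
      rw [hfibre _ (notMem_erase a _), sum_congr rfl (fun p _ => (hI p).trans hIW), sum_const,
        smul_eq_mul]
  have hfixb : ∀ w : G, Inv' w → w • b = b → w * d * w = d⁻¹ := by
    intro w hw hwb
    have : w ∈ Fs.biUnion I := mem_biUnion.2 ⟨b, by
      simp only [Fs, mem_filter, mem_erase, mem_univ, true_and]
      exact ⟨Ne.symm hab, db⟩, mem_filter.2 ⟨(hTmem w).2 hw, hwb⟩⟩
    rw [← hXY] at this
    simp only [Fs, mem_filter, mem_erase, mem_univ, true_and] at this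
    exact S.inverts (Ne.symm this.2.1) rfl (by rw [← mul_smul, hw.1, one_smul]) da this.2.2
  -- so commuting involutions are equal
  refine hreg (S.hasReg_of_isolated hi hfixex (fun r₀ s₀ hr₀ hs₀ hrs₀ => ?_) hab)
  by_contra hne₀
  obtain ⟨x, hx⟩ := hfixex s₀ hs₀
  have hrx : r₀ • x = x := S.fix_unique hi hs₀ (by rw [← mul_smul, ← hrs₀.eq, mul_smul, hx]) hx
  obtain ⟨g, gx⟩ := exists_smul_eq G x b
  have key : ∀ w : G, w • x = x → (g * w * g⁻¹) • b = b := fun w hw => by
    rw [← gx, mul_smul, inv_smul_smul, mul_smul, hw]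
  set r := g * r₀ * g⁻¹ with hr_def
  set s := g * s₀ * g⁻¹ with hs_def
  have hr : Inv' r := inv'_conj hr₀ g
  have hs : Inv' s := inv'_conj hs₀ g
  have hrs : r * s = s * r := (hrs₀.map (MulAut.conj g).toMonoidHom).eq
  have hne : r ≠ s := fun e => hne₀ ((MulAut.conj g).injective e)
  have hprod : Inv' (r * s) := by
    refine ⟨?_, fun e => hne ?_⟩
    · calc r * s * (r * s) = r * (s * r) * s := by group
        _ = (r * r) * (s * s) := by rw [← hrs]; group
        _ = 1 := by rw [hr.1, hs.1, one_mul]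
    · rw [mul_eq_one_iff_eq_inv.1 e]
      exact inv_eq_of_mul_eq_one_right hs.1
  have h1 := hfixb _ hprod (by rw [mul_smul, key _ hx, key _ hrx])
  have h2 : r * s * d * (r * s) = d := by
    calc r * s * d * (r * s) = r * s * d * (s * r) := by rw [hrs]
      _ = r * (s * d * s) * r := by group
      _ = r * d⁻¹ * r := by rw [hfixb s hs (key _ hx)]
      _ = r * (r * d * r) * r := by rw [hfixb r hr (key _ hrx)]
      _ = (r * r) * d * (r * r) := by group
      _ = d := by rw [hr.1, one_mul, mul_one]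
  rw [h2] at h1
  exact hd2 (mul_eq_one_iff_eq_inv.2 h1)

end Data

end Cfsg.Agent.H81.Fixity
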