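import Cfsg.Agent.H81.Fixity.Basic
import Cfsg.Agent.H7.SimpleCrit

/-!
Consequences of the counting, and the route to a regular normal subgroup.
-/

set_option autoImplicit false

namespace Cfsg.Agent.H81.Fixity

open MulAction

variable {G Ω : Type*} [Group G] [MulAction G Ω]

open Finset in
theorem invol_parity {α : Type*} [Fintype α] [DecidableEq α] (f : α → α) (hf : Function.Involutive f) :
    (univ.filter fun x => f x = x).card % 2 = Fintype.card α % 2 := by
  haveI : Fact (Nat.Prime 2) := ⟨Nat.prime_two⟩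
  have h := Equiv.Perm.card_compl_support_modEq (p := 2) (n := 1) (σ := hf.toPerm f)
    (Equiv.ext fun z => by simp [pow_succ, hf z])
  rw [← h]
  congr 2
  ext z
  simp

open Finset in
theorem exists_fixed_of_odd {α : Type*} [Fintype α] (f : α → α) (hf : Function.Involutive f)
    (h : Odd (Fintype.card α)) : ∃ x, f x = x := by
  classical
  by_contra hc
  have := invol_parity f hf
  rw [Finset.filter_eq_empty_iff.2 fun x _ e => hc ⟨x, e⟩, Finset.card_empty, Nat.odd_iff.1 h] at this
  omega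

/-- A regular normal subgroup exists. -/
def HasReg (G Ω : Type*) [Group G] [MulAction G Ω] : Prop :=
  ∃ R : Subgroup G, R.Normal ∧ (∀ x y : Ω, ∃ r ∈ R, r • x = y) ∧
    ∀ x : Ω, ∀ r ∈ R, r • x = x → r = 1

theorem hasReg_of_comm [FaithfulSMul G Ω] (h2 : IsMultiplyPretransitive G Ω 2) (A : Subgroup G)
    [A.Normal] (hA : A ≠ ⊥) (hc : ∀ x ∈ A, ∀ y ∈ A, x * y = y * x) : HasReg G Ω := by
  haveI := H7.isPretransitive_of_normal_two_transitive h2 A hA
  refine ⟨A, ‹_›, fun x y => ?_, fun x r hr hx => ?_⟩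
  · obtain ⟨⟨r, hr⟩, h⟩ := exists_smul_eq A x y
    exact ⟨r, hr, h⟩
  · refine FaithfulSMul.eq_of_smul_eq_smul (α := Ω) fun y => ?_
    obtain ⟨⟨s, hs⟩, h⟩ := exists_smul_eq A x y
    have h' : s • x = y := h
    rw [one_smul, ← h', ← mul_smul, hc r hr s hs, mul_smul, hx]

theorem exists_comm_of_solvable [Finite G] (N : Subgroup G) [N.Normal] [Group.IsSolvable N]
    (hN : N ≠ ⊥) : ∃ A : Subgroup G, A.Normal ∧ A ≠ ⊥ ∧ ∀ x ∈ A, ∀ y ∈ A, x * y = y * x := by
  induction hk : Nat.card N using Nat.strong_induction_on generalizing N with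
  | h k ih =>
    by_cases hb : ⁅N, N⁆ = ⊥
    · refine ⟨N, ‹_›, hN, fun x hx y hy => ?_⟩
      have h := Subgroup.commutator_mem_commutator hx hy
      rw [hb, Subgroup.mem_bot, commutatorElement_eq_one_iff_mul_comm] at h
      exact h
    · haveI : Nontrivial N := (Subgroup.nontrivial_iff_ne_bot N).2 hN
      have hlt : ⁅N, N⁆ < N := by
        rw [← Subgroup.map_subtype_commutator]
        refine lt_of_le_of_ne (Subgroup.map_subtype_le _) fun e => ?_
        have h := IsSolvable.commutator_lt_top_of_nontrivial (G := N)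
        refine h.ne (Subgroup.map_injective N.subtype_injective ?_)
        rw [e, ← MonoidHom.range_eq_map, Subgroup.range_subtype]
      haveI : Group.IsSolvable (⁅N, N⁆ : Subgroup G) :=
        Group.isSolvable_of_isSolvable_injective (Subgroup.inclusion_injective hlt.le)
      refine ih _ ?_ ⁅N, N⁆ hb rfl
      rw [← hk]
      exact Set.Finite.card_lt_card (Set.toFinite _) hlt

namespace Data

variable [Finite G] [Fintype Ω] {i : ℕ} (S : Data G Ω i)
include S

omit [Finite G] [Fintype Ω] in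
theorem moves {g : G} (hg : g ≠ 1) : ∃ x : Ω, g • x ≠ x := by
  haveI := S.faithful
  by_contra h
  push Not at h
  exact hg (FaithfulSMul.eq_of_smul_eq_smul (α := Ω) fun x => by rw [one_smul, h])

omit [Finite G] [Fintype Ω] in
theorem exists_swap {a b : Ω} (hab : a ≠ b) : ∃ w : G, Inv' w ∧ w • a = b ∧ w • b = a := by
  obtain ⟨w, wa, wb⟩ := S.two hab hab.symm
  exact ⟨w, ⟨S.swap_sq hab wa wb, fun e => hab (by rw [e, one_smul] at wa; exact wa)⟩, wa, wb⟩

omit [Finite G] [Fintype Ω] in
/-- A swap of two fixed points of `d` inverts `d`. -/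
theorem inverts {a b : Ω} {w d : G} (hab : a ≠ b) (wa : w • a = b) (wb : w • b = a)
    (da : d • a = a) (db : d • b = b) : w * d * w = d⁻¹ := by
  have h := S.swap_sq (g := w * d) hab (by rw [mul_smul, da, wa]) (by rw [mul_smul, db, wb])
  exact eq_inv_of_mul_eq_one_left (by rw [← h]; group)

omit [Finite G] [Fintype Ω] in
theorem pair_comm {a b : Ω} {d e : G} (hab : a ≠ b) (da : d • a = a) (db : d • b = b)
    (ea : e • a = a) (eb : e • b = b) : d * e = e * d := by
  obtain ⟨w, hw, wa, wb⟩ := S.exists_swap hab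
  have h1 := S.inverts hab wa wb (d := d * e) (by rw [mul_smul, ea, da]) (by rw [mul_smul, eb, db])
  have h2 : w * (d * e) * w = (w * d * w) * (w * e * w) := by
    calc w * (d * e) * w = w * d * (1 * e) * w := by group
      _ = w * d * (w * w * e) * w := by rw [hw.1]
      _ = _ := by group
  rw [h2, S.inverts hab wa wb da db, S.inverts hab wa wb ea eb, ← mul_inv_rev, inv_inj] at h1
  exact h1.symm

omit [Finite G] in
theorem two_le_fixc {a b : Ω} {g : G} (hab : a ≠ b) (ga : g • a = a) (gb : g • b = b) :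
    2 ≤ fixc Ω g := by
  classical
  rw [fixc, Nat.card_eq_fintype_card]
  exact Fintype.one_lt_card_iff.2 ⟨⟨a, ga⟩, ⟨b, gb⟩, fun e => hab (congrArg Subtype.val e)⟩

omit [Finite G] in
theorem three_le_fixc {a b c : Ω} {g : G} (hab : a ≠ b) (hbc : b ≠ c) (hac : a ≠ c)
    (ga : g • a = a) (gb : g • b = b) (gc : g • c = c) : 3 ≤ fixc Ω g := by
  classical
  rw [fixc, Nat.card_eq_fintype_card]
  exact Fintype.two_lt_card_iff.2 ⟨⟨a, ga⟩, ⟨b, gb⟩, ⟨c, gc⟩, fun e => hab (congrArg Subtype.val e),
    fun e => hac (congrArg Subtype.val e), fun e => hbc (congrArg Subtype.val e)⟩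

omit [Finite G] in
theorem fix_unique (hi : i ≤ 1) {v : G} (hv : Inv' v) {a b : Ω} (va : v • a = a) (vb : v • b = b) :
    a = b := by
  by_contra hab
  have := S.two_le_fixc hab va vb
  rw [S.fix hv] at this
  omega

omit [Finite G] [Fintype Ω] in
theorem pretransitive : IsPretransitive G Ω := by
  refine ⟨fun x y => ?_⟩
  rcases eq_or_ne x y with rfl | h
  · exact ⟨1, one_smul _ _⟩
  · obtain ⟨g, hg, -⟩ := S.two h h.symm
    exact ⟨g, hg⟩

omit [Finite G] [Fintype Ω] in
theorem multiply : IsMultiplyPretransitive G Ω 2 :=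
  is_two_pretransitive_iff.2 fun h h' => S.two h h'

end Data

omit [MulAction G Ω] in
theorem inv'_conj {v : G} (hv : Inv' v) (g : G) : Inv' (g * v * g⁻¹) :=
  ⟨by calc g * v * g⁻¹ * (g * v * g⁻¹) = g * (v * v) * g⁻¹ := by group
        _ = 1 := by rw [hv.1]; group,
    fun e => hv.2 (conj_eq_one_iff.1 e)⟩

end Cfsg.Agent.H81.Fixity
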